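import Mathlib

/-!
# S3814 (four primes, pairwise joined, no triangle filled => nonsolvable): interface

Team project, coordinator helper46.  This file only contains definitions (the configuration `Cfg`
of a minimal counterexample `G = V ⋊ H`) and the package statements as `Prop`-valued defs.
-/

set_option autoImplicit false

namespace Cfsg.Agent.Lib.Helper46.FP

universe u

section defs

variable {G : Type u} [Group G]

/-- `x` has a nontrivial fixed point on `V`: it commutes with some `v ∈ V`, `v ≠ 1`. -/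
def Fx (V : Subgroup G) (x : G) : Prop := ∃ v ∈ V, v ≠ 1 ∧ v * x = x * v

/-- `N ≤ H` and `H` normalizes `N`. -/
def NormIn (N H : Subgroup G) : Prop := N ≤ H ∧ ∀ h ∈ H, ∀ x ∈ N, h * x * h⁻¹ ∈ N

/-- `N` is a minimal normal subgroup of `H`. -/
def MinNormIn (N H : Subgroup G) : Prop :=
  NormIn N H ∧ N ≠ ⊥ ∧ ∀ N' : Subgroup G, NormIn N' H → N' ≤ N → N' ≠ ⊥ → N' = N

/-- `H` acts faithfully on `V` by conjugation. -/
def Faithful (V H : Subgroup G) : Prop := ∀ x ∈ H, (∀ v ∈ V, v * x = x * v) → x = 1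

/-- `H` has normal subgroups of two different prime orders. -/
def TwoPrimes (H : Subgroup G) : Prop :=
  ∃ n ∈ H, ∃ m ∈ H, (orderOf n).Prime ∧ (orderOf m).Prime ∧ orderOf n ≠ orderOf m ∧
    NormIn (Subgroup.zpowers n) H ∧ NormIn (Subgroup.zpowers m) H

/-- every minimal normal subgroup of `H` is cyclic. -/
def AllMinCyc (H : Subgroup G) : Prop :=
  ∀ N : Subgroup G, MinNormIn N H → ∃ n ∈ N, N = Subgroup.zpowers n

/-- The configuration of a minimal counterexample: `G = V ⋊ H`, `V` an elementary abelian normal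
`t`-subgroup which is a minimal normal subgroup of `G`, `H` a `π`-group (`π` = three primes,
`t ∉ π`), all products of two primes of `π` are element orders of `H`, no product of three
primes of `π ∪ {t}` is an element order of `G`, every element of prime order `p ∈ π` of `H` lies
in a `C_p × C_p ≤ H`, and `H` is minimal: a subgroup of `H` which still has all `pq`-elements
and, for each `p ∈ π`, an element of order `p` with a fixed point on `V`, is `H`. -/
structure Cfg (V H : Subgroup G) (t : ℕ) (π : Finset ℕ) : Prop where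
  fin : Finite G
  solv : Group.IsSolvable G
  tprime : t.Prime
  piprime : ∀ p ∈ π, p.Prime
  tnot : t ∉ π
  card3 : π.card = 3
  Vnormal : V.Normal
  Vcomm : ∀ v ∈ V, ∀ w ∈ V, v * w = w * v
  Vexp : ∀ v ∈ V, v ^ t = 1
  Vne : V ≠ ⊥
  Vmin : ∀ W : Subgroup G, W.Normal → W ≤ V → W = ⊥ ∨ W = V
  inf : H ⊓ V = ⊥
  sup : H ⊔ V = ⊤
  Hpi : ∀ p : ℕ, p.Prime → p ∣ Nat.card H → p ∈ π
  pair : ∀ p ∈ π, ∀ q ∈ π, p ≠ q → ∃ g ∈ H, orderOf g = p * q
  notriple : ∀ p ∈ insert t π, ∀ q ∈ insert t π, ∀ r ∈ insert t π, p ≠ q → q ≠ r → p ≠ r →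
    ∀ g : G, orderOf g ≠ p * q * r
  rank : ∀ p ∈ π, ∀ x ∈ H, orderOf x = p →
    ∃ y ∈ H, orderOf y = p ∧ x * y = y * x ∧ y ∉ Subgroup.zpowers x
  minimal : ∀ K : Subgroup G, K ≤ H →
    (∀ p ∈ π, ∀ q ∈ π, p ≠ q → ∃ g ∈ K, orderOf g = p * q) →
    (∀ p ∈ π, ∃ x ∈ K, orderOf x = p ∧ Fx V x) → K = H

end defs

/-! ## Basic facts (each is a package) -/

/-- (F) an element of `H` of order `p q` has no fixed point on `V`. -/
def BF_F : Prop :=
  ∀ {G : Type u} [Group G] {V H : Subgroup G} {t : ℕ} {π : Finset ℕ}, Cfg V H t π →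
    ∀ p ∈ π, ∀ q ∈ π, p ≠ q → ∀ x ∈ H, orderOf x = p * q → ¬ Fx V x

/-- (T1 on V) every `C_p × C_p ≤ H` contains an element with a fixed point on `V`. -/
def BF_T1 : Prop :=
  ∀ {G : Type u} [Group G] {V H : Subgroup G} {t : ℕ} {π : Finset ℕ}, Cfg V H t π →
    ∀ p ∈ π, ∀ x ∈ H, ∀ y ∈ H, orderOf x = p → orderOf y = p → x * y = y * x →
      y ∉ Subgroup.zpowers x → ∃ e ∈ Subgroup.closure ({x, y} : Set G), e ≠ 1 ∧ Fx V e

/-- (C1a) an element of prime order with a fixed point on `V` does not commute with elements of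
both other prime orders. -/
def BF_C1a : Prop :=
  ∀ {G : Type u} [Group G] {V H : Subgroup G} {t : ℕ} {π : Finset ℕ}, Cfg V H t π →
    ∀ p ∈ π, ∀ q ∈ π, ∀ r ∈ π, p ≠ q → q ≠ r → p ≠ r →
    ∀ x ∈ H, ∀ y ∈ H, ∀ z ∈ H, orderOf x = p → Fx V x → orderOf y = q → orderOf z = r →
      x * y = y * x → x * z = z * x → False

/-- (C1b) an element of prime order `p` with a fixed point on `V` does not centralize a
`C_q × C_q`, `q ≠ p`. -/
def BF_C1b : Prop :=
  ∀ {G : Type u} [Group G] {V H : Subgroup G} {t : ℕ} {π : Finset ℕ}, Cfg V H t π →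
    ∀ p ∈ π, ∀ q ∈ π, p ≠ q →
    ∀ x ∈ H, ∀ y ∈ H, ∀ z ∈ H, orderOf x = p → Fx V x → orderOf y = q → orderOf z = q →
      x * y = y * x → x * z = z * x → y * z = z * y → z ∈ Subgroup.zpowers y

/-- (T3) in the faithful case an element of prime order `p` without fixed points on `V`
centralizes every abelian `p'`-subgroup of `H` which it normalizes. -/
def BF_T3 : Prop :=
  ∀ {G : Type u} [Group G] {V H : Subgroup G} {t : ℕ} {π : Finset ℕ}, Cfg V H t π →
    Faithful V H → ∀ p ∈ π, ∀ y ∈ H, orderOf y = p → ¬ Fx V y →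
    ∀ K : Subgroup G, K ≤ H → (∀ k ∈ K, ∀ k' ∈ K, k * k' = k' * k) → ¬ p ∣ Nat.card K →
      (∀ k ∈ K, y * k * y⁻¹ ∈ K) → ∀ k ∈ K, y * k = k * y

/-- (M) faithful case: commuting `x, y ∈ H` of prime orders `p ≠ q` normalizing a nontrivial
`r`-subgroup `P` of `H` (`r` the third prime): exactly one of them has a nontrivial fixed point
on `P`; that one has no fixed point on `V`, the other one has a fixed point on `V`. -/
def BF_M : Prop :=
  ∀ {G : Type u} [Group G] {V H : Subgroup G} {t : ℕ} {π : Finset ℕ}, Cfg V H t π →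
    Faithful V H → ∀ p ∈ π, ∀ q ∈ π, ∀ r ∈ π, p ≠ q → q ≠ r → p ≠ r →
    ∀ x ∈ H, ∀ y ∈ H, orderOf x = p → orderOf y = q → x * y = y * x →
    ∀ P : Subgroup G, P ≤ H → IsPGroup r P → P ≠ ⊥ →
      (∀ k ∈ P, x * k * x⁻¹ ∈ P) → (∀ k ∈ P, y * k * y⁻¹ ∈ P) →
      ((∃ k ∈ P, k ≠ 1 ∧ x * k = k * x) ∧ (∀ k ∈ P, y * k = k * y → k = 1) ∧
          ¬ Fx V x ∧ Fx V y) ∨
      ((∃ k ∈ P, k ≠ 1 ∧ y * k = k * y) ∧ (∀ k ∈ P, x * k = k * x → k = 1) ∧
          ¬ Fx V y ∧ Fx V x)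

/-- (NF) faithful case: a generator of a normal subgroup of prime order of `H` has no fixed
point on `V`. -/
def BF_NF : Prop :=
  ∀ {G : Type u} [Group G] {V H : Subgroup G} {t : ℕ} {π : Finset ℕ}, Cfg V H t π →
    Faithful V H → ∀ n ∈ H, (orderOf n).Prime → NormIn (Subgroup.zpowers n) H → ¬ Fx V n

/-! ## Lemma Y (pure group theory; replaces Hall–Higman) -/

/-- Lemma Y. `A` an `a`-group, `y` of prime order `b`, `z0, z3` commuting of prime order `c`
(`a, b, c` distinct, `c ∣ a - 1`), all normalizing `A`; `z0` normalizes `⟨y⟩` but does not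
centralize `y`; `z3` centralizes `y` and is fixed-point-free on `A`; for every `e ≠ 1` in
`⟨z0, z3⟩` the centralizer `C_A(e)` contains no `C_a × C_a`; `y` centralizes every abelian
subgroup of `A` which it normalizes.  Then `y` centralizes `A`. -/
def LemY : Prop :=
  ∀ {G : Type u} [Group G] [Finite G] (a b c : ℕ), a.Prime → b.Prime → c.Prime →
    a ≠ b → a ≠ c → b ≠ c → c ∣ a - 1 →
    ∀ (A : Subgroup G), IsPGroup a A →
    ∀ (y z0 z3 : G), orderOf y = b → orderOf z0 = c → orderOf z3 = c →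
      (∀ x ∈ A, y * x * y⁻¹ ∈ A) → (∀ x ∈ A, z0 * x * z0⁻¹ ∈ A) → (∀ x ∈ A, z3 * x * z3⁻¹ ∈ A) →
      z0 * z3 = z3 * z0 → z3 * y = y * z3 →
      z0 * y * z0⁻¹ ∈ Subgroup.zpowers y → z0 * y ≠ y * z0 →
      (∀ x ∈ A, z3 * x = x * z3 → x = 1) →
      (∀ e ∈ Subgroup.closure ({z0, z3} : Set G), e ≠ 1 → ∀ x ∈ A, ∀ x' ∈ A,
        e * x = x * e → e * x' = x' * e → x * x' = x' * x → orderOf x = a → orderOf x' = a →
        x' ∈ Subgroup.zpowers x) →
      (∀ B : Subgroup G, B ≤ A → (∀ x ∈ B, ∀ x' ∈ B, x * x' = x' * x) →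
        (∀ x ∈ B, y * x * y⁻¹ ∈ B) → ∀ x ∈ B, y * x = x * y) →
      ∀ x ∈ A, y * x = x * y

/-! ## The case packages -/

/-- (E) faithful case: every minimal normal subgroup of `H` is cyclic. -/
def PkgE : Prop :=
  BF_F.{u} → BF_T1.{u} → BF_C1a.{u} → BF_C1b.{u} → BF_T3.{u} → BF_M.{u} → BF_NF.{u} →
  ∀ {G : Type u} [Group G] {V H : Subgroup G} {t : ℕ} {π : Finset ℕ}, Cfg V H t π →
    Faithful V H → AllMinCyc H

/-- (C) faithful case, all minimal normal subgroups of `H` cyclic, all normal subgroups of prime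
order of the same order: impossible. -/
def PkgC : Prop :=
  BF_F.{u} → BF_T1.{u} → BF_C1a.{u} → BF_C1b.{u} → BF_T3.{u} → BF_M.{u} → BF_NF.{u} → LemY.{u} →
  ∀ {G : Type u} [Group G] {V H : Subgroup G} {t : ℕ} {π : Finset ℕ}, Cfg V H t π →
    Faithful V H → AllMinCyc H → ¬ TwoPrimes H → False

/-- (D) faithful case with normal subgroups of two different prime orders: impossible. -/
def PkgD : Prop :=
  BF_F.{u} → BF_T1.{u} → BF_C1a.{u} → BF_C1b.{u} → BF_T3.{u} → BF_M.{u} → BF_NF.{u} → LemY.{u} →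
  ∀ {G : Type u} [Group G] {V H : Subgroup G} {t : ℕ} {π : Finset ℕ}, Cfg V H t π →
    Faithful V H → TwoPrimes H → False

/-- (Case 2) the non-faithful case is impossible. -/
def PkgNF : Prop :=
  BF_F.{u} → BF_T1.{u} →
  ∀ {G : Type u} [Group G] {V H : Subgroup G} {t : ℕ} {π : Finset ℕ}, Cfg V H t π →
    ¬ Faithful V H → False

/-- (Red) reduction of a solvable counterexample to a configuration. -/
def PkgRed : Prop :=
  ∀ {G : Type u} [Group G] [Finite G] (σ : Finset ℕ), 4 ≤ σ.card → (∀ p ∈ σ, p.Prime) →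
    (∀ p ∈ σ, ∀ q ∈ σ, p ≠ q → ∃ g : G, orderOf g = p * q) →
    (∀ p ∈ σ, ∀ q ∈ σ, ∀ r ∈ σ, p ≠ q → q ≠ r → p ≠ r → ∀ g : G, orderOf g ≠ p * q * r) →
    Group.IsSolvable G →
    ∃ (G' : Type u) (_ : Group G') (V H : Subgroup G') (t : ℕ) (π : Finset ℕ), Cfg V H t π

/-- Assembly: all packages give the statement of S3814. -/
theorem main_of_pkgs (hF : BF_F.{u}) (hT1 : BF_T1.{u}) (hC1a : BF_C1a.{u}) (hC1b : BF_C1b.{u})
    (hT3 : BF_T3.{u}) (hM : BF_M.{u}) (hNF : BF_NF.{u}) (hY : LemY.{u})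
    (hE : PkgE.{u}) (hC : PkgC.{u}) (hD : PkgD.{u}) (h2 : PkgNF.{u}) (hR : PkgRed.{u})
    {G : Type u} [Group G] [Finite G]
    (σ : Finset ℕ) (hσ : 4 ≤ σ.card) (hprime : ∀ p ∈ σ, p.Prime)
    (h2' : ∀ p ∈ σ, ∀ q ∈ σ, p ≠ q → ∃ g : G, orderOf g = p * q)
    (h3 : ∀ p ∈ σ, ∀ q ∈ σ, ∀ r ∈ σ, p ≠ q → q ≠ r → p ≠ r → ∀ g : G, orderOf g ≠ p * q * r) :
    ¬ Group.IsSolvable G := by
  intro hsolv
  obtain ⟨G', _, V, H, t, π, hcfg⟩ := hR σ hσ hprime h2' h3 hsolv
  by_cases hfa : Faithful V H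
  · have hmin := hE hF hT1 hC1a hC1b hT3 hM hNF hcfg hfa
    by_cases h2p : TwoPrimes H
    · exact hD hF hT1 hC1a hC1b hT3 hM hNF hY hcfg hfa h2p
    · exact hC hF hT1 hC1a hC1b hT3 hM hNF hY hcfg hfa hmin h2p
  · exact h2 hF hT1 hcfg hfa

end Cfsg.Agent.Lib.Helper46.FP
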